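import Mathlib
import Cfsg.Agent.H730.PairRow
import Cfsg.Agent.H471.TRowPSU

/-!
# The unitary groups: `XRow r (PSU n F q)` (task 1087 of helper730)

`x = e * u`, `e = diag (a, a, a^2, ..., a^(n-2), a^(-E))` with `a` of order `q + 1`, `u` a transvection along an
isotropic vector of the plane spanned by the first two basis vectors.
-/

set_option autoImplicit false

namespace Cfsg.Agent.H519.XPsu

open Cfsg Subgroup
open Cfsg.Agent.LieClassical.HermBasic Cfsg.Agent.LieClassical.HermSiegel Cfsg.Agent.LieClassical.SUBasic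
  Cfsg.Agent.ClassicalGeometry.UnitAutBasic Cfsg.Agent.ClassicalGeometry.PSUAutCount
  Cfsg.Agent.LieClassical.FieldTransfer
open scoped Matrix
open Cfsg.Agent.H471.TRowPSU (vv vv_iso vv_ne exists_norm_gen exists_card_fixed exists_root fld_pr orderOf_tau)

/-! ### Exponents -/

/-- the sum of the positive exponents -/
def EE (k : ℕ) : ℕ := ∑ i ∈ Finset.range (k + 2), max i 1

theorem EE_succ (k : ℕ) : EE (k + 1) = EE k + (k + 2) := by
  unfold EE
  rw [Finset.sum_range_succ (n := k + 2)]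
  congr 1

theorem EE_lt (k : ℕ) : EE k + 1 < 2 ^ (k + 2) := by
  induction k with
  | zero => decide
  | succ k ih =>
    rw [EE_succ]
    have h1 : k + 2 < 2 ^ (k + 2) := Nat.lt_two_pow_self
    have h2 : 2 ^ (k + 1 + 2) = 2 ^ (k + 2) + 2 ^ (k + 2) := by ring
    omega

/-- the exponents -/
def ex (k : ℕ) (i : Fin (k + 3)) : ℤ := if i.val = k + 2 then -(EE k : ℤ) else ((max i.val 1 : ℕ) : ℤ)

theorem sum_ex (k : ℕ) : ∑ i, ex k i = 0 := by
  rw [Fin.sum_univ_castSucc]
  have h1 : ex k (Fin.last (k + 2)) = -(EE k : ℤ) := by simp [ex]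
  have h2 : ∀ i : Fin (k + 2), ex k i.castSucc = ((max i.val 1 : ℕ) : ℤ) := by
    intro i
    unfold ex
    rw [if_neg]
    · rfl
    · have := i.2
      show ¬ (i.val = k + 2)
      omega
  rw [h1]
  simp only [h2]
  have h3 : ∑ i : Fin (k + 2), ((max i.val 1 : ℕ) : ℤ) = (EE k : ℤ) := by
    unfold EE
    rw [Nat.cast_sum, Finset.sum_range]
  rw [h3]
  ring

theorem ex_zero (k : ℕ) : ex k 0 = 1 := by
  unfold ex
  rw [if_neg (by show ¬ (0 = k + 2); omega)]
  rfl

theorem ex_one (k : ℕ) : ex k 1 = 1 := by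
  unfold ex
  have h : ((1 : Fin (k + 3)) : ℕ) = 1 := by
    show 1 % (k + 3) = 1
    exact Nat.mod_eq_of_lt (by omega)
  rw [h, if_neg (by omega)]
  rfl

theorem ex_last (k : ℕ) : ex k (Fin.last (k + 2)) = -(EE k : ℤ) := by simp [ex]

theorem ex_ne {k : ℕ} {i j : Fin (k + 3)} (hij : i ≠ j) (h : ¬ (i.val ≤ 1 ∧ j.val ≤ 1)) : ex k i ≠ ex k j := by
  have hv : i.val ≠ j.val := fun e => hij (Fin.ext e)
  unfold ex
  have hi := i.2
  have hj := j.2
  split_ifs with h1 h2 h2
  · omega
  · intro h3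
    have : (0 : ℤ) < ((max j.val 1 : ℕ) : ℤ) := by
      have : 0 < max j.val 1 := by omega
      exact_mod_cast this
    have h4 : (0 : ℤ) ≤ (EE k : ℤ) := by positivity
    omega
  · intro h3
    have : (0 : ℤ) < ((max i.val 1 : ℕ) : ℤ) := by
      have : 0 < max i.val 1 := by omega
      exact_mod_cast this
    have h4 : (0 : ℤ) ≤ (EE k : ℤ) := by positivity
    omega
  · intro h3
    have h4 : max i.val 1 = max j.val 1 := by exact_mod_cast h3
    omega

theorem ex_abs {k : ℕ} (i j : Fin (k + 3)) : |ex k i - ex k j| < 2 ^ (k + 3) := by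
  have h1 : ∀ i : Fin (k + 3), -(EE k : ℤ) ≤ ex k i ∧ ex k i ≤ (k : ℤ) + 1 := by
    intro i
    have hi := i.2
    have h4 : (0 : ℤ) ≤ (EE k : ℤ) := by positivity
    unfold ex
    split_ifs with h
    · constructor
      · exact le_refl _
      · omega
    · have h5 : max i.val 1 ≤ k + 1 := by omega
      have h6 : ((max i.val 1 : ℕ) : ℤ) ≤ (k : ℤ) + 1 := by exact_mod_cast h5
      constructor
      · have : (0 : ℤ) ≤ ((max i.val 1 : ℕ) : ℤ) := by positivity
        omega
      · exact h6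
  have h2 := EE_lt k
  have h3 : k + 2 < 2 ^ (k + 2) := Nat.lt_two_pow_self
  have h4 : 2 ^ (k + 3) = 2 ^ (k + 2) + 2 ^ (k + 2) := by ring
  have h5 : ((2 ^ (k + 2) : ℕ) : ℤ) = (2 : ℤ) ^ (k + 2) := by push_cast; rfl
  have h6 : (2 : ℤ) ^ (k + 3) = 2 ^ (k + 2) + 2 ^ (k + 2) := by ring
  obtain ⟨a1, a2⟩ := h1 i
  obtain ⟨b1, b2⟩ := h1 j
  rw [h6, ← h5, abs_lt]
  constructor <;> omega

/-! ### The diagonal elements -/

variable {F : Type*} [Field F] {q k : ℕ}

theorem prod_zpow_sum {G : Type*} [CommGroup G] {ι : Type*} (s : Finset ι) (f : ι → ℤ) (u : G) :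
    ∏ i ∈ s, u ^ f i = u ^ ∑ i ∈ s, f i := by
  classical
  induction s using Finset.induction_on with
  | empty => simp
  | insert a s ha ih => rw [Finset.prod_insert ha, Finset.sum_insert ha, ih, zpow_add]

theorem prod_dg (u : Fˣ) : ∏ i, ((u ^ ex k i : Fˣ) : F) = 1 := by
  rw [← Units.coe_prod, prod_zpow_sum, sum_ex, zpow_zero, Units.val_one]

theorem dg_pow {u : Fˣ} (hu : u ^ (q + 1) = 1) (i : Fin (k + 3)) : ((u ^ ex k i : Fˣ) : F) ^ (q + 1) = 1 := by
  rw [← Units.val_pow_eq_pow_val, ← zpow_natCast, ← zpow_mul, mul_comm, zpow_mul, zpow_natCast, hu, one_zpow,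
    Units.val_one]

/-- the diagonal elements -/
def dE (k : ℕ) (u : Fˣ) (hu : u ^ (q + 1) = 1) : SU (k + 3) F q :=
  suDiag q (fun i => ((u ^ ex k i : Fˣ) : F)) (prod_dg u) (dg_pow hu)

theorem act_dE {u : Fˣ} (hu : u ^ (q + 1) = 1) (x : Fin (k + 3) → F) :
    act (dE k u hu) x = fun i => ((u ^ ex k i : Fˣ) : F) * x i := by
  funext i
  show (Matrix.diagonal (fun i => ((u ^ ex k i : Fˣ) : F)) *ᵥ x) i = _
  rw [Matrix.mulVec_diagonal]

theorem dE_one : dE k (1 : Fˣ) (one_pow (q + 1)) = (1 : SU (k + 3) F q) := by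
  apply ext_act
  intro x
  rw [act_dE, act_one]
  funext i
  rw [one_zpow, Units.val_one, one_mul]

theorem dE_mul {u w : Fˣ} (hu : u ^ (q + 1) = 1) (hw : w ^ (q + 1) = 1) :
    dE k u hu * dE k w hw = dE k (u * w) (by rw [mul_pow, hu, hw, one_mul]) := by
  apply ext_act
  intro x
  rw [act_mul, act_dE, act_dE, act_dE]
  funext i
  rw [mul_zpow, Units.val_mul, mul_assoc]

/-- the diagonal elements as a homomorphism -/
def hE (F : Type*) [Field F] (q k : ℕ) : rootsOfUnity (q + 1) F →* SU (k + 3) F q where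
  toFun u := dE k (u : Fˣ) ((mem_rootsOfUnity _ _).1 u.2)
  map_one' := dE_one
  map_mul' _ _ := (dE_mul _ _).symm

theorem act_hE (u : rootsOfUnity (q + 1) F) (x : Fin (k + 3) → F) :
    act (hE F q k u) x = fun i => (((u : Fˣ) ^ ex k i : Fˣ) : F) * x i :=
  act_dE ((mem_rootsOfUnity _ _).1 u.2) x

/-! ### Centralisers -/

section cent

variable [Fintype F]

omit [Fintype F] in
theorem act_hE_vv (u : rootsOfUnity (q + 1) F) (b : F) :
    act (hE F q k u) (vv k b) = (((u : Fˣ)) : F) • vv k b := by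
  rw [act_hE]
  funext i
  show _ = ((u : Fˣ) : F) * vv k b i
  unfold vv
  by_cases h0 : i.val = 0
  · have : i = 0 := Fin.ext h0
    subst this
    rw [ex_zero, zpow_one]
  · by_cases h1 : i.val = 1
    · have h2 : ex k i = 1 := by
        unfold ex
        rw [if_neg (by omega), h1]
        rfl
      rw [h2, zpow_one]
    · rw [if_neg h0, if_neg h1, mul_zero, mul_zero]

/-- elements commuting with `e` and `u` -/
theorem cent_act (hF : Fintype.card F = q ^ 2) {b : F} (hb : b * b ^ q = -1) (u : rootsOfUnity (q + 1) F)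
    {g : SU (k + 3) F q} (h1 : pr (k + 3) F q g * pr (k + 3) F q (hE F q k u) =
      pr (k + 3) F q (hE F q k u) * pr (k + 3) F q g)
    (h2 : pr (k + 3) F q g * tau hF (vv k b) = tau hF (vv k b) * pr (k + 3) F q g) :
    (∃ c : F, c * c ^ q = 1 ∧ act g (vv k b) = c • vv k b) ∧
      ∀ x, act g (act (hE F q k u) x) = act (hE F q k u) (act g x) := by
  have hn : 3 ≤ k + 3 := by omega
  have hv := vv_iso (k := k) hF hb
  have h3 : tau hF (vv k b) = tau hF (act g (vv k b)) := by
    rw [← conj_tau hF g hv, h2, mul_inv_cancel_right]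
  obtain ⟨c, hc, hgv⟩ := (tau_eq_tau_iff hF hn hv (iso_act g hv) vv_ne).1 h3
  refine ⟨⟨c, hc, hgv⟩, ?_⟩
  have hc0 : c ≠ 0 := by
    rintro rfl
    rw [zero_mul] at hc
    exact zero_ne_one hc
  have h4 : pr (k + 3) F q (g * hE F q k u) = pr (k + 3) F q (hE F q k u * g) := by
    rw [map_mul, map_mul, h1]
  obtain ⟨z, -, hz⟩ := exists_scalar_of_pr_eq hF hn h4
  have h5 := hz (vv k b)
  rw [act_mul, act_mul, act_hE_vv, act_smul, hgv, act_smul, act_hE_vv, smul_smul, smul_smul, smul_smul] at h5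
  have h6 : z = 1 := by
    have h7 := congrFun h5 0
    have h8 : vv k b 0 = 1 := by simp [vv]
    simp only [Pi.smul_apply, smul_eq_mul, h8, mul_one] at h7
    have h9 : c * ((u : Fˣ) : F) ≠ 0 := mul_ne_zero hc0 (u : Fˣ).ne_zero
    have h10 : z * (c * ((u : Fˣ) : F)) = 1 * (c * ((u : Fˣ) : F)) := by
      calc z * (c * ((u : Fˣ) : F)) = z * ((u : Fˣ) : F) * c := by ring
        _ = c * ((u : Fˣ) : F) := h7.symm
        _ = 1 * (c * ((u : Fˣ) : F)) := (one_mul _).symm
    exact mul_right_cancel₀ h9 h10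
  intro x
  have h7 := hz x
  rw [h6, one_smul, act_mul, act_mul] at h7
  exact h7.symm

omit [Fintype F] in
theorem mat_eq_zero {u : rootsOfUnity (q + 1) F} {g : SU (k + 3) F q}
    (h : ∀ x, act g (act (hE F q k u) x) = act (hE F q k u) (act g x)) {i j : Fin (k + 3)}
    (hij : (u : Fˣ) ^ ex k i ≠ (u : Fˣ) ^ ex k j) : mat g i j = 0 := by
  have h1 := congrFun (h (Pi.single j 1)) i
  have h2 : act (hE F q k u) (Pi.single j 1) = (((u : Fˣ) ^ ex k j : Fˣ) : F) • Pi.single j 1 := by
    rw [act_hE]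
    funext l
    rw [Pi.smul_apply, smul_eq_mul]
    by_cases hl : l = j
    · rw [hl]
    · rw [Pi.single_eq_of_ne hl, mul_zero, mul_zero]
  have h4 : act (hE F q k u) (act g (Pi.single j 1)) i = (((u : Fˣ) ^ ex k i : Fˣ) : F) * mat g i j := by
    rw [act_hE]
    show _ * act g (Pi.single j 1) i = _
    rw [act_single]
  rw [h2, act_smul, h4, Pi.smul_apply, smul_eq_mul, act_single] at h1
  by_contra h3
  exact hij (Units.ext (mul_right_cancel₀ h3 h1)).symm

omit [Fintype F] in
/-- the character of a common eigenvector -/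
theorem exists_char {n : ℕ} (H : Subgroup (SU n F q)) {w : Fin n → F} (hw : w ≠ 0)
    (h : ∀ g ∈ H, ∃ c : F, c * c ^ q = 1 ∧ act g w = c • w) :
    ∃ χ : H →* rootsOfUnity (q + 1) F, ∀ g : H, act (g : SU n F q) w = (((χ g : Fˣ)) : F) • w := by
  classical
  have hinj : ∀ c d : F, c • w = d • w → c = d := by
    intro c d hcd
    have : (c - d) • w = 0 := by rw [sub_smul, hcd, sub_self]
    rcases smul_eq_zero.1 this with h1 | h1
    · exact sub_eq_zero.1 h1
    · exact absurd h1 hw
  have h0 : ∀ g : H, ∃ c : rootsOfUnity (q + 1) F, act (g : SU n F q) w = ((c : Fˣ) : F) • w := by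
    intro g
    obtain ⟨c, hc, hg⟩ := h g g.2
    have hc0 : c ≠ 0 := by
      rintro rfl
      rw [zero_mul] at hc
      exact zero_ne_one hc
    refine ⟨⟨Units.mk0 c hc0, ?_⟩, hg⟩
    rw [mem_rootsOfUnity]
    apply Units.ext
    rw [Units.val_pow_eq_pow_val, Units.val_mk0, pow_succ', hc, Units.val_one]
  choose χ hχ using h0
  have hext : ∀ a b : rootsOfUnity (q + 1) F, ((a : Fˣ) : F) = ((b : Fˣ) : F) → a = b := fun a b hab =>
    Subtype.ext (Units.ext hab)
  refine ⟨{ toFun := χ, map_one' := ?_, map_mul' := ?_ }, hχ⟩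
  · apply hext
    apply hinj
    rw [← hχ]
    show act (1 : SU n F q) w = _
    rw [act_one]
    show w = (1 : F) • w
    rw [one_smul]
  · intro a b
    apply hext
    apply hinj
    rw [← hχ]
    show act ((a : SU n F q) * (b : SU n F q)) w = _
    rw [act_mul, hχ b, act_smul, hχ a, smul_smul, mul_comm]
    rfl

/-- the functional -/
def ph (k : ℕ) (b : F) : Fin (k + 3) → F := fun i => if i.val = 0 then -b else if i.val = 1 then 1 else 0

/-- the matrices in the kernel: a diagonal matrix times a transvection -/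
theorem mat_ker (hF : Fintype.card F = q ^ 2) {b : F} (hb : b * b ^ q = -1) {g : SU (k + 3) F q} {μ : F}
    (h0 : act g (vv k b) = vv k b)
    (h1 : ∀ i j : Fin (k + 3), i ≠ j → ¬ (i.val ≤ 1 ∧ j.val ≤ 1) → mat g i j = 0)
    (h2 : ∀ j : Fin (k + 3), 2 ≤ j.val → j.val ≤ k + 1 → mat g j j = 1)
    (h3 : mat g (Fin.last (k + 2)) (Fin.last (k + 2)) = μ) :
    mat g = (1 + Matrix.vecMulVec (mat g 0 1 • vv k b) (ph k b)) *
      Matrix.diagonal (fun i : Fin (k + 3) => if i.val = k + 2 then μ else 1) := by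
  have v0 : vv k b 0 = 1 := by simp [vv]
  have e1 : ((1 : Fin (k + 3)) : ℕ) = 1 := by
    show 1 % (k + 3) = 1
    exact Nat.mod_eq_of_lt (by omega)
  have v1 : vv k b 1 = b := by
    unfold vv
    rw [e1, if_neg one_ne_zero, if_pos rfl]
  have v2 : ∀ i : Fin (k + 3), 2 ≤ i.val → vv k b i = 0 := by
    intro i hi
    unfold vv
    rw [if_neg (by omega), if_neg (by omega)]
  have hb0 : b ≠ 0 := by
    rintro rfl
    rw [zero_mul] at hb
    exact one_ne_zero (neg_eq_zero.1 hb.symm)
  -- the vector as a combination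
  have hv : vv k b = Pi.single 0 1 + b • Pi.single 1 1 := by
    funext i
    rw [Pi.add_apply, Pi.smul_apply, smul_eq_mul]
    by_cases hi : i.val = 0
    · have : i = 0 := Fin.ext hi
      subst this
      rw [v0, Pi.single_eq_same, Pi.single_eq_of_ne (by
        intro h
        have := congrArg Fin.val h
        rw [e1] at this
        simp at this), mul_zero, add_zero]
    · by_cases hi1 : i.val = 1
      · have : i = 1 := Fin.ext (by rw [hi1, e1])
        subst this
        rw [v1, Pi.single_eq_same, Pi.single_eq_of_ne (by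
          intro h
          have := congrArg Fin.val h
          rw [e1] at this
          simp at this), mul_one, zero_add]
      · rw [v2 i (by omega), Pi.single_eq_of_ne (by
          intro h
          exact hi (congrArg Fin.val h)), Pi.single_eq_of_ne (by
          intro h
          exact hi1 (by rw [congrArg Fin.val h, e1])), mul_zero, add_zero]
  -- the matrix equation for the first two columns
  have hcol : ∀ i, mat g i 0 + b * mat g i 1 = vv k b i := by
    intro i
    have h4 := congrFun h0 i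
    rw [hv, act_add, act_smul, Pi.add_apply, Pi.smul_apply, smul_eq_mul, act_single, act_single, ← hv] at h4
    exact h4
  -- the image of the second basis vector
  have hc1 : act g (Pi.single 1 1) = mat g 0 1 • Pi.single 0 1 + mat g 1 1 • Pi.single 1 1 := by
    funext i
    rw [act_single, Pi.add_apply, Pi.smul_apply, Pi.smul_apply, smul_eq_mul, smul_eq_mul]
    by_cases hi : i.val = 0
    · have : i = 0 := Fin.ext hi
      subst this
      rw [Pi.single_eq_same, Pi.single_eq_of_ne (by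
        intro h
        have := congrArg Fin.val h
        rw [e1] at this
        simp at this), mul_zero, add_zero, mul_one]
    · by_cases hi1 : i.val = 1
      · have : i = 1 := Fin.ext (by rw [hi1, e1])
        subst this
        rw [Pi.single_eq_same, Pi.single_eq_of_ne (by
          intro h
          have := congrArg Fin.val h
          rw [e1] at this
          simp at this), mul_zero, zero_add, mul_one]
      · rw [h1 i 1 (by
          intro h
          exact hi1 (by rw [congrArg Fin.val h, e1])) (by omega), Pi.single_eq_of_ne (by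
          intro h
          exact hi (congrArg Fin.val h)), Pi.single_eq_of_ne (by
          intro h
          exact hi1 (by rw [congrArg Fin.val h, e1])), mul_zero, mul_zero, add_zero]
  -- unitarity
  have hb1 : hermForm (k + 3) F q (Pi.single 1 1) (vv k b) = b ^ q := by
    rw [herm_single_left, v1, one_mul]
  have hb2 : hermForm (k + 3) F q (Pi.single 0 1) (vv k b) = 1 := by
    rw [herm_single_left, v0, one_mul, one_pow]
  have hb3 : mat g 0 1 + mat g 1 1 * b ^ q = b ^ q := by
    have h4 := herm_act g (Pi.single 1 1) (vv k b)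
    rw [h0, hc1, herm_add_left, herm_smul_left, herm_smul_left, hb1, hb2, mul_one] at h4
    exact h4
  have hm11 : mat g 1 1 = 1 + mat g 0 1 * b := by
    have h4 : (mat g 1 1 - 1 - mat g 0 1 * b) * b ^ q = 0 := by
      have h5 : (mat g 1 1 - 1 - mat g 0 1 * b) * b ^ q =
          (mat g 0 1 + mat g 1 1 * b ^ q) - b ^ q - mat g 0 1 * (1 + b * b ^ q) := by ring
      rw [h5, hb3, hb]
      ring
    rcases mul_eq_zero.1 h4 with h5 | h5
    · calc mat g 1 1 = (mat g 1 1 - 1 - mat g 0 1 * b) + (1 + mat g 0 1 * b) := by ring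
        _ = 1 + mat g 0 1 * b := by rw [h5, zero_add]
    · exact absurd ((pow_eq_zero_iff (q_pos hF).ne').1 h5) hb0
  have hdiag : ∀ i, mat g i 1 = (1 : Matrix (Fin (k + 3)) (Fin (k + 3)) F) i 1 + mat g 0 1 * vv k b i := by
    intro i
    by_cases hi : i.val = 0
    · have : i = 0 := Fin.ext hi
      subst this
      rw [v0, Matrix.one_apply_ne (by
        intro h
        have := congrArg Fin.val h
        rw [e1] at this
        simp at this), mul_one, zero_add]
    · by_cases hi1 : i.val = 1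
      · have : i = 1 := Fin.ext (by rw [hi1, e1])
        subst this
        rw [v1, Matrix.one_apply_eq, hm11]
      · have hne : i ≠ 1 := by
          intro h
          exact hi1 (by rw [congrArg Fin.val h, e1])
        rw [h1 i 1 hne (by omega), v2 i (by omega), Matrix.one_apply_ne hne, mul_zero, zero_add]
  ext i j
  rw [Matrix.mul_diagonal, Matrix.add_apply, Matrix.vecMulVec_apply, Pi.smul_apply, smul_eq_mul]
  by_cases hj : j.val = 0
  · have : j = 0 := Fin.ext hj
    subst this
    have h4 : (if ((0 : Fin (k + 3)) : ℕ) = k + 2 then μ else 1) = 1 := if_neg (by show ¬ (0 = k + 2); omega)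
    rw [h4, mul_one]
    have hp : ph k b 0 = -b := by simp [ph]
    rw [hp]
    have h5 := hcol i
    rw [hdiag i] at h5
    have h6 : vv k b i = (1 : Matrix (Fin (k + 3)) (Fin (k + 3)) F) i 0 +
        b * (1 : Matrix (Fin (k + 3)) (Fin (k + 3)) F) i 1 := by
      rw [hv, Pi.add_apply, Pi.smul_apply, smul_eq_mul, Matrix.one_apply, Matrix.one_apply, Pi.single_apply,
        Pi.single_apply]
    have h7 : mat g i 0 = vv k b i - b * ((1 : Matrix (Fin (k + 3)) (Fin (k + 3)) F) i 1 + mat g 0 1 * vv k b i) :=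
      eq_sub_of_add_eq h5
    rw [h7]
    linear_combination h6
  · by_cases hj1 : j.val = 1
    · have : j = 1 := Fin.ext (by rw [hj1, e1])
      subst this
      have h4 : (if ((1 : Fin (k + 3)) : ℕ) = k + 2 then μ else 1) = 1 := if_neg (by rw [e1]; omega)
      have hp : ph k b 1 = 1 := by
        unfold ph
        rw [e1, if_neg one_ne_zero, if_pos rfl]
      rw [h4, mul_one, hdiag i, hp, mul_one]
    · have h4 : ph k b j = 0 := by
        unfold ph
        rw [if_neg hj, if_neg hj1]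
      rw [h4, mul_zero, add_zero]
      by_cases hij : i = j
      · subst hij
        rw [Matrix.one_apply_eq, one_mul]
        by_cases hl : i.val = k + 2
        · have : i = Fin.last (k + 2) := Fin.ext hl
          rw [if_pos hl, this, h3]
        · have := i.2
          rw [if_neg hl, h2 i (by omega) (by omega)]
      · rw [Matrix.one_apply_ne hij, zero_mul, h1 i j hij (by omega)]

omit [Fintype F] in
theorem det_unip (b s : F) : ((1 : Matrix (Fin (k + 3)) (Fin (k + 3)) F) +
    Matrix.vecMulVec (s • vv k b) (ph k b)).det = 1 := by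
  rw [Matrix.vecMulVec_eq Unit, Matrix.det_one_add_replicateCol_mul_replicateRow]
  have h : (ph k b) ⬝ᵥ (s • vv k b) = 0 := by
    rw [dotProduct, Fin.sum_univ_succ, Fin.sum_univ_succ]
    have h0 : vv k b 0 = 1 := by simp [vv]
    have h1 : vv k b (Fin.succ 0) = b := by simp [vv]
    have h3 : ∀ i : Fin (k + 1), vv k b (Fin.succ (Fin.succ i)) = 0 := by
      intro i
      simp [vv]
    have p0 : ph k b 0 = -b := by simp [ph]
    have p1 : ph k b (Fin.succ 0) = 1 := by simp [ph]
    simp only [Pi.smul_apply, smul_eq_mul, h0, h1, h3, p0, p1, mul_zero, Finset.sum_const_zero, add_zero]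
    ring
  rw [h, add_zero]

omit [Fintype F] in
theorem mu_eq_one {g : SU (k + 3) F q} {μ b s : F}
    (h : mat g = (1 + Matrix.vecMulVec (s • vv k b) (ph k b)) *
      Matrix.diagonal (fun i : Fin (k + 3) => if i.val = k + 2 then μ else 1)) : μ = 1 := by
  have h1 := det_mat g
  rw [h, Matrix.det_mul, det_unip, one_mul, Matrix.det_diagonal] at h1
  rw [Fin.prod_univ_castSucc] at h1
  have h2 : ∀ i : Fin (k + 2), (if (i.castSucc).val = k + 2 then μ else 1) = 1 := by
    intro i
    rw [if_neg]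
    have := i.2
    show ¬ (i.val = k + 2)
    omega
  simp only [h2, Finset.prod_const_one, one_mul, Fin.val_last, if_true] at h1
  exact h1

theorem card_roots (hF : Fintype.card F = q ^ 2) : Nat.card (rootsOfUnity (q + 1) F) = q + 1 := by
  obtain ⟨au, hau⟩ := exists_norm_gen hF
  have h1 : IsPrimitiveRoot au (q + 1) := by rw [← hau]; exact IsPrimitiveRoot.orderOf au
  exact (IsPrimitiveRoot.card_rootsOfUnity' h1)

/-- the vectors whose eigenvalues are the coordinates -/
def ww (k : ℕ) (b : F) (i : Fin (k + 1)) : Fin (k + 3) → F :=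
  if i.val = 0 then vv k b else Pi.single ⟨i.val + 1, by omega⟩ 1

theorem card_dvd (hF : Fintype.card F = q ^ 2) {b : F} (hb : b * b ^ q = -1) (H : Subgroup (SU (k + 3) F q))
    (hH1 : ∀ g ∈ H, ∃ c : F, c * c ^ q = 1 ∧ act g (vv k b) = c • vv k b)
    (hH2 : ∀ g ∈ H, ∀ i j : Fin (k + 3), i ≠ j → ¬ (i.val ≤ 1 ∧ j.val ≤ 1) → mat g i j = 0) :
    Nat.card H ∣ q ^ 2 * (q + 1) ^ (k + 1) := by
  classical
  -- eigenvectors
  have hei : ∀ g ∈ H, ∀ j : Fin (k + 3), 2 ≤ j.val → act g (Pi.single j 1) = mat g j j • Pi.single j 1 := by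
    intro g hg j hj
    funext i
    rw [act_single, Pi.smul_apply, smul_eq_mul]
    by_cases hij : i = j
    · subst hij
      rw [Pi.single_eq_same, mul_one]
    · rw [hH2 g hg i j hij (by omega), Pi.single_eq_of_ne hij, mul_zero]
  have hnorm : ∀ g ∈ H, ∀ j : Fin (k + 3), 2 ≤ j.val → mat g j j * mat g j j ^ q = 1 := by
    intro g hg j hj
    have h1 := herm_act g (Pi.single j 1) (Pi.single j (1 : F))
    rw [hei g hg j hj, herm_smul_left, herm_smul_right, herm_single_left, Pi.single_eq_same, one_pow, mul_one,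
      mul_one] at h1
    exact h1
  have hww0 : ∀ i : Fin (k + 1), ww k b i ≠ 0 := by
    intro i
    unfold ww
    split_ifs with h
    · exact vv_ne
    · intro h1
      have := congrFun h1 ⟨i.val + 1, by omega⟩
      rw [Pi.single_eq_same] at this
      exact one_ne_zero this
  have hww : ∀ i : Fin (k + 1), ∀ g ∈ H, ∃ c : F, c * c ^ q = 1 ∧ act g (ww k b i) = c • ww k b i := by
    intro i g hg
    unfold ww
    split_ifs with h
    · exact hH1 g hg
    · exact ⟨_, hnorm g hg ⟨i.val + 1, by omega⟩ (by show 2 ≤ i.val + 1; omega),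
        hei g hg ⟨i.val + 1, by omega⟩ (by show 2 ≤ i.val + 1; omega)⟩
  choose χ hχ using fun i : Fin (k + 1) => exists_char H (hww0 i) (hww i)
  let f : H →* (Fin (k + 1) → rootsOfUnity (q + 1) F) :=
    { toFun := fun g i => χ i g
      map_one' := by funext i; exact map_one _
      map_mul' := fun a b => by funext i; exact map_mul _ _ _ }
  have hcf : Nat.card f.range ∣ (q + 1) ^ (k + 1) := by
    have h1 := Subgroup.card_subgroup_dvd_card f.range
    rwa [Nat.card_pi, Finset.prod_const, Finset.card_univ, Fintype.card_fin, card_roots hF] at h1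
  -- the kernel
  have hfin : Finite (SU (k + 3) F q) := inferInstance
  have hk : ∀ g : f.ker, act ((g : H) : SU (k + 3) F q) (vv k b) = vv k b ∧
      (∀ j : Fin (k + 3), 2 ≤ j.val → j.val ≤ k + 1 → mat ((g : H) : SU (k + 3) F q) j j = 1) := by
    intro g
    have h0 : ∀ i, act ((g : H) : SU (k + 3) F q) (ww k b i) = ww k b i := by
      intro i
      have h1 : χ i (g : H) = 1 := congrFun (MonoidHom.mem_ker.1 g.2) i
      rw [hχ, h1]
      show ((1 : Fˣ) : F) • _ = _
      rw [Units.val_one, one_smul]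
    constructor
    · have h1 := h0 0
      unfold ww at h1
      rw [if_pos (by rfl)] at h1
      exact h1
    · intro j hj hj'
      have h1 := h0 ⟨j.val - 1, by omega⟩
      unfold ww at h1
      rw [if_neg (by show ¬ (j.val - 1 = 0); omega)] at h1
      have h2 : (⟨(⟨j.val - 1, by omega⟩ : Fin (k + 1)).val + 1, by show j.val - 1 + 1 < k + 3; omega⟩ : Fin (k + 3)) = j := by
        apply Fin.ext
        show j.val - 1 + 1 = j.val
        omega
      rw [h2] at h1
      have h3 := congrFun h1 j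
      rwa [act_single, Pi.single_eq_same] at h3
  have hmat : ∀ g : f.ker, mat ((g : H) : SU (k + 3) F q) =
      1 + Matrix.vecMulVec (mat ((g : H) : SU (k + 3) F q) 0 1 • vv k b) (ph k b) := by
    intro g
    obtain ⟨h1, h2⟩ := hk g
    have h3 := mat_ker (μ := mat ((g : H) : SU (k + 3) F q) (Fin.last (k + 2)) (Fin.last (k + 2))) hF hb h1
      (hH2 _ (g : H).2) h2 rfl
    have h4 := mu_eq_one h3
    rw [h4] at h3
    have h5 : (Matrix.diagonal (fun i : Fin (k + 3) => if i.val = k + 2 then (1 : F) else 1)) = 1 := by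
      simp only [ite_self]
      exact Matrix.diagonal_one
    rw [h5, mul_one] at h3
    exact h3
  have hs : ∀ g h : f.ker, mat (((g * h : f.ker) : H) : SU (k + 3) F q) 0 1 =
      mat ((g : H) : SU (k + 3) F q) 0 1 + mat ((h : H) : SU (k + 3) F q) 0 1 := by
    intro g h
    have h1 : mat (((g * h : f.ker) : H) : SU (k + 3) F q) = mat ((g : H) : SU (k + 3) F q) * mat ((h : H) : SU (k + 3) F q) :=
      mat_mul _ _
    have hpv : ph k b ⬝ᵥ vv k b = 0 := by
      rw [dotProduct, Fin.sum_univ_succ, Fin.sum_univ_succ]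
      have h0 : vv k b 0 = 1 := by simp [vv]
      have h1 : vv k b (Fin.succ 0) = b := by simp [vv]
      have h3 : ∀ i : Fin (k + 1), vv k b (Fin.succ (Fin.succ i)) = 0 := by
        intro i
        simp [vv]
      have p0 : ph k b 0 = -b := by simp [ph]
      have p1 : ph k b (Fin.succ 0) = 1 := by simp [ph]
      simp only [h0, h1, h3, p0, p1, mul_zero, Finset.sum_const_zero, add_zero]
      ring
    have hA : ∀ a c : F, (1 + Matrix.vecMulVec (a • vv k b) (ph k b)) * (1 + Matrix.vecMulVec (c • vv k b) (ph k b)) =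
        1 + Matrix.vecMulVec ((a + c) • vv k b) (ph k b) := by
      intro a c
      have hN : Matrix.vecMulVec (vv k b) (ph k b) * Matrix.vecMulVec (vv k b) (ph k b) = 0 := by
        rw [Matrix.vecMulVec_mul_vecMulVec, hpv, zero_smul, Matrix.vecMulVec_zero]
      rw [Matrix.smul_vecMulVec, Matrix.smul_vecMulVec, Matrix.smul_vecMulVec, add_mul, mul_add, mul_add, one_mul, one_mul,
        mul_one, smul_mul_assoc, mul_smul_comm, hN, smul_zero, smul_zero, add_zero, add_smul]
      abel
    rw [h1, hmat g, hmat h, hA, hmat g, hmat h]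
    simp [Matrix.vecMulVec_apply, vv, ph]
  let s : f.ker →* Multiplicative F :=
    MonoidHom.mk' (fun g => Multiplicative.ofAdd (mat ((g : H) : SU (k + 3) F q) 0 1)) (fun g h => by
      rw [hs, ofAdd_add])
  have hsinj : Function.Injective s := by
    intro g h hgh
    have h1 : mat ((g : H) : SU (k + 3) F q) 0 1 = mat ((h : H) : SU (k + 3) F q) 0 1 := hgh
    apply Subtype.ext
    apply Subtype.ext
    apply mat_injective
    rw [hmat g, hmat h, h1]
  have hck : Nat.card f.ker ∣ q ^ 2 := by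
    have h1 := Subgroup.card_dvd_of_injective s hsinj
    rwa [show Nat.card (Multiplicative F) = q ^ 2 by
      rw [← hF, ← Nat.card_eq_fintype_card]
      rfl] at h1
  rw [← Subgroup.card_mul_index f.ker, Subgroup.index_ker]
  exact Nat.mul_dvd_mul hck hcf

end cent

/-! ### Numbers -/

theorem succ_dvd_factor (q i : ℕ) : q + 1 ∣ (if Even i then q ^ (i + 1) + 1 else q ^ (i + 1) - 1) := by
  split_ifs with h
  · have h1 : Odd (i + 1) := h.add_one
    simpa using Odd.nat_add_dvd_pow_add_pow q 1 h1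
  · rw [Nat.not_even_iff_odd] at h
    obtain ⟨m, rfl⟩ := h
    have h1 : q ^ 2 - 1 ∣ q ^ (2 * m + 1 + 1) - 1 := by
      have : 2 * m + 1 + 1 = 2 * (m + 1) := by ring
      rw [this, pow_mul]
      simpa using Nat.sub_dvd_pow_sub_pow (q ^ 2) 1 (m + 1)
    refine dvd_trans ?_ h1
    exact ⟨q - 1, by rw [← Nat.sq_sub_sq q 1, one_pow]⟩

variable [Fintype F]

theorem succ_pow_dvd (hF : Fintype.card F = q ^ 2) : (q + 1) ^ (k + 2) ∣ Nat.card (SU (k + 3) F q) := by
  have h1 := S0278.result (F := F) hF (k + 3) (by omega)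
  have h2 : (q + 1) ^ (k + 3) ∣ ∏ i ∈ Finset.range (k + 3), (if Even i then q ^ (i + 1) + 1 else q ^ (i + 1) - 1) := by
    have h3 : ∏ _i ∈ Finset.range (k + 3), (q + 1) ∣
        ∏ i ∈ Finset.range (k + 3), (if Even i then q ^ (i + 1) + 1 else q ^ (i + 1) - 1) :=
      Finset.prod_dvd_prod_of_dvd _ _ fun i _ => succ_dvd_factor q i
    rwa [Finset.prod_const, Finset.card_range] at h3
  have h4 : (q + 1) * (q + 1) ^ (k + 2) ∣ (q + 1) * Nat.card (SU (k + 3) F q) := by
    rw [h1, ← pow_succ']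
    exact h2.mul_left _
  exact Nat.dvd_of_mul_dvd_mul_left (by omega) h4

theorem cube_dvd (hF : Fintype.card F = q ^ 2) : q ^ 3 ∣ Nat.card (SU (k + 3) F q) := by
  have h1 := S0278.result (F := F) hF (k + 3) (by omega)
  have h2 : q ^ 3 ∣ q ^ ((k + 3) * (k + 3 - 1) / 2) := by
    apply pow_dvd_pow
    rw [Nat.le_div_iff_mul_le (by norm_num)]
    have : k + 3 - 1 = k + 2 := by omega
    rw [this]
    nlinarith
  have h3 : q ^ 3 ∣ (q + 1) * Nat.card (SU (k + 3) F q) := by
    rw [h1]
    exact h2.mul_right _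
  exact Nat.Coprime.dvd_of_dvd_mul_left (Nat.Coprime.pow_left 3 (by simp)) h3

theorem le_of_not_dvd (hF : Fintype.card F = q ^ 2) {t : ℕ} (ht : t.Prime) (ht2 : t ≠ 2) (htq : ¬ t ∣ q)
    (htG : ¬ t ∣ Nat.card (PSU (k + 3) F q)) : k + 4 ≤ t := by
  by_contra hlt
  have h2 := ht.two_le
  have hq1 : ¬ t ∣ q + 1 := fun h => htG (H254.PSUn.dvd_card hF (by omega) h)
  have h1 := S0280.result (F := F) hF (k + 3) (by omega)
  have hodd : Odd t := ht.odd_of_ne_two ht2
  obtain ⟨m, hm⟩ := hodd
  have hm1 : 1 ≤ m := by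
    rcases Nat.eq_zero_or_pos m with h | h
    · rw [h] at hm; omega
    · exact h
  have h3 : t ∣ q ^ (t - 1) - 1 := by
    have h4 : q ^ (t - 1) ≡ 1 [MOD t] := by
      have := Nat.ModEq.pow_totient (n := t) (x := q) ((Nat.Prime.coprime_iff_not_dvd ht).2 htq).symm
      rwa [Nat.totient_prime ht] at this
    exact (Nat.modEq_iff_dvd' (Nat.one_le_pow _ _ (q_pos hF))).1 h4.symm
  have h4 : t ∣ ∏ i ∈ Finset.range (k + 3), (if Even i then q ^ (i + 1) + 1 else q ^ (i + 1) - 1) := by
    have h5 : (if Even (t - 2) then q ^ (t - 2 + 1) + 1 else q ^ (t - 2 + 1) - 1) = q ^ (t - 1) - 1 := by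
      rw [if_neg]
      · congr 2
        omega
      · rw [Nat.not_even_iff_odd]
        exact ⟨m - 1, by omega⟩
    have h6 := Finset.dvd_prod_of_mem (fun i => if Even i then q ^ (i + 1) + 1 else q ^ (i + 1) - 1)
      (show t - 2 ∈ Finset.range (k + 3) by rw [Finset.mem_range]; omega)
    refine dvd_trans ?_ h6
    rw [h5]
    exact h3
  have h5 : t ∣ Nat.gcd (k + 3) (q + 1) * ((q + 1) * Nat.card (Cfsg.PSU (k + 3) F q)) := by
    rw [h1]
    exact h4.mul_left _
  rcases ht.dvd_mul.1 h5 with h6 | h6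
  · exact hq1 (h6.trans (Nat.gcd_dvd_right _ _))
  · rcases ht.dvd_mul.1 h6 with h7 | h7
    · exact hq1 h7
    · exact htG h7

theorem dvd_index_of {G : Type*} [Group G] [Finite G] {H : Subgroup G} {p : ℕ} (hp : p.Prime) {m : ℕ}
    (h1 : p ^ m ∣ Nat.card G) (h2 : ¬ p ^ m ∣ Nat.card H) : p ∣ H.index := by
  by_contra hcon
  apply h2
  rw [← H.card_mul_index] at h1
  exact (((Nat.Prime.coprime_iff_not_dvd hp).2 hcon).pow_left m).dvd_of_dvd_mul_right h1

/-- all primes divide the index -/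
theorem dvd_index (hF : Fintype.card F = q ^ 2) {H : Subgroup (SU (k + 3) F q)}
    (hH : Nat.card H ∣ q ^ 2 * (q + 1) ^ (k + 1)) {p : ℕ} (hp : p.Prime)
    (hpG : p ∣ Nat.card (PSU (k + 3) F q)) : p ∣ H.index := by
  have hfin : Finite (SU (k + 3) F q) := inferInstance
  have hpS : p ∣ Nat.card (SU (k + 3) F q) :=
    hpG.trans (Subgroup.card_quotient_dvd_card (Subgroup.center (SU (k + 3) F q)))
  have hq0 := q_pos hF
  have hq2 := two_le hF
  by_cases h1 : p ∣ q
  · -- the characteristic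
    have hpq : ¬ p ∣ q + 1 := fun h => hp.one_lt.ne' (Nat.dvd_one.1 ((Nat.dvd_add_right h1).1 h))
    set a := q.factorization p with ha
    have ha1 : 1 ≤ a := (hp.dvd_iff_one_le_factorization hq0.ne').1 h1
    have hd : p ^ a ∣ q := Nat.ordProj_dvd q p
    refine dvd_index_of hp (m := a * 3) ?_ ?_
    · rw [pow_mul]
      exact (pow_dvd_pow_of_dvd hd 3).trans (cube_dvd hF)
    · intro h2
      have h3 : p ^ (a * 3) ∣ q ^ 2 :=
        Nat.Coprime.dvd_of_dvd_mul_right (Nat.Coprime.pow _ _ ((Nat.Prime.coprime_iff_not_dvd hp).2 hpq)) (h2.trans hH)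
      have h4 := (hp.pow_dvd_iff_le_factorization (pow_ne_zero 2 hq0.ne')).1 h3
      rw [Nat.factorization_pow, Finsupp.smul_apply, smul_eq_mul, ← ha] at h4
      omega
  · by_cases h2 : p ∣ q + 1
    · set a := (q + 1).factorization p with ha
      have ha1 : 1 ≤ a := (hp.dvd_iff_one_le_factorization (by omega)).1 h2
      have hd : p ^ a ∣ q + 1 := Nat.ordProj_dvd (q + 1) p
      refine dvd_index_of hp (m := a * (k + 2)) ?_ ?_
      · rw [pow_mul]
        exact (pow_dvd_pow_of_dvd hd (k + 2)).trans (succ_pow_dvd hF)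
      · intro h3
        have h4 : p ^ (a * (k + 2)) ∣ (q + 1) ^ (k + 1) :=
          Nat.Coprime.dvd_of_dvd_mul_left (Nat.Coprime.pow _ _ ((Nat.Prime.coprime_iff_not_dvd hp).2 h1)) (h3.trans hH)
        have h5 := (hp.pow_dvd_iff_le_factorization (pow_ne_zero (k + 1) (by omega))).1 h4
        rw [Nat.factorization_pow, Finsupp.smul_apply, smul_eq_mul, ← ha] at h5
        nlinarith
    · refine dvd_index_of hp (m := 1) (by rwa [pow_one]) ?_
      rw [pow_one]
      intro h3
      rcases hp.dvd_mul.1 (h3.trans hH) with h4 | h4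
      · exact h1 (hp.dvd_of_dvd_pow h4)
      · exact h2 (hp.dvd_of_dvd_pow h4)

/-! ### The row -/

omit [Fintype F] in
theorem suCongr_hE {u : rootsOfUnity (q + 1) F} (τ : F ≃+* F) {m : ℤ} (hm : Units.map (τ : F →* F) (u : Fˣ) = (u : Fˣ) ^ m) :
    suCongr (k + 3) q τ (hE F q k u) = hE F q k u ^ m := by
  rw [← map_zpow]
  apply ext_act
  intro v
  have h1 := act_suCongr τ (hE F q k u) (fun i => τ.symm (v i))
  have h2 : (fun i => τ ((fun i => τ.symm (v i)) i)) = v := by
    funext i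
    simp
  rw [h2, act_hE] at h1
  rw [h1, act_hE]
  funext i
  rw [map_mul, RingEquiv.apply_symm_apply]
  congr 1
  have h3 : τ (((u : Fˣ) ^ ex k i : Fˣ) : F) = ((Units.map (τ : F →* F) ((u : Fˣ) ^ ex k i) : Fˣ) : F) := rfl
  rw [h3, map_zpow, hm]
  show _ = ((((u ^ m : rootsOfUnity (q + 1) F) : Fˣ) ^ ex k i : Fˣ) : F)
  rw [Subgroup.coe_zpow]

theorem gen_e (hF : Fintype.card F = q ^ 2) {r : ℕ} (hr : r.Prime) [CharP F r] (hna : ¬ IsMulCommutative (PSU (k + 3) F q))
    [Finite (PSU (k + 3) F q)] [IsSimpleGroup (PSU (k + 3) F q)]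
    (h32 : ¬ (k + 3 = 3 ∧ q = 2)) {u : rootsOfUnity (q + 1) F} (hu : orderOf (u : Fˣ) = q + 1) :
    H730.Pair.Gen (PSU (k + 3) F q) (pr (k + 3) F q (hE F q k u)) := by
  have hn : 3 ≤ k + 3 := by omega
  have : Fact r.Prime := ⟨hr⟩
  obtain ⟨ρ, hρ, -⟩ := H254.exists_ringAut F
  have hcop := H254.PSUn.copIn hF hn h32 hna ρ hρ
  have hfld : ∀ τ : F ≃+* F, ∃ m : ℤ, Units.map (τ : F →* F) (u : Fˣ) = (u : Fˣ) ^ m := by
    intro τ
    have hprim : IsPrimitiveRoot (u : Fˣ) (q + 1) := IsPrimitiveRoot.iff_orderOf.2 hu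
    have h1 : (Units.map (τ : F →* F) (u : Fˣ)) ^ (q + 1) = 1 := by
      rw [← map_pow, (mem_rootsOfUnity _ _).1 u.2, map_one]
    have hprim' : IsPrimitiveRoot ((u : Fˣ) : F) (q + 1) :=
      hprim.map_of_injective (f := Units.coeHom F) Units.val_injective
    obtain ⟨i, -, hi⟩ := hprim'.eq_pow_of_pow_eq_one (ξ := ((Units.map (τ : F →* F) (u : Fˣ) : Fˣ) : F)) (by
      rw [← Units.val_pow_eq_pow_val, h1, Units.val_one])
    refine ⟨(i : ℤ), ?_⟩
    apply Units.ext
    rw [zpow_natCast, Units.val_pow_eq_pow_val]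
    exact hi.symm
  have hact : ∀ (τ : F ≃+* F) (m : ℤ), Units.map (τ : F →* F) (u : Fˣ) = (u : Fˣ) ^ m →
      H254.PSUn.fld (k + 3) q τ (pr (k + 3) F q (hE F q k u)) = (pr (k + 3) F q (hE F q k u)) ^ m := by
    intro τ m hm
    rw [fld_pr, suCongr_hE τ hm, map_zpow]
  refine H730.Pair.Gen.of_conjIn (H730.Pair.ConjIn.of_copIn hcop (mem_zpowers _)) ?_ ?_
  · rintro _ ⟨j, rfl⟩
    show (H254.PSUn.fld (F := F) (k + 3) q ρ ^ j) _ ∈ _
    rw [← map_zpow]
    obtain ⟨m, hm⟩ := hfld (ρ ^ j)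
    rw [hact _ m hm]
    exact zpow_mem (mem_zpowers _) _
  · intro t ht htG δ hδ ho hfix
    obtain ⟨j, hj⟩ := hδ
    have hj' : H254.PSUn.fld (F := F) (k + 3) q (ρ ^ j) = δ := by
      rw [map_zpow]
      exact hj
    set τ := ρ ^ j with hτdef
    have hτ : orderOf τ = t := by
      rw [← H254.PSUn.orderOf_eq (q := q) (n := k + 3) hF hn, hj', ho]
    obtain ⟨m, hm⟩ := hfld τ
    rw [← hj', hact τ m hm] at hfix
    -- numbers
    obtain ⟨d, -, hd⟩ := FiniteField.card F r
    obtain ⟨f, -, hf⟩ := (Nat.dvd_prime_pow hr).1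
      (show q ∣ r ^ (d : ℕ) by rw [← hd, hF]; exact dvd_pow_self q two_ne_zero)
    have hq2 := two_le hF
    have hf1 : 1 ≤ f := by
      rcases Nat.eq_zero_or_pos f with h | h
      · rw [h, pow_zero] at hf; omega
      · exact h
    obtain ⟨b, hb⟩ := exists_norm_eq hF (c := (-1 : F)) (by rw [neg_pow_q hF, one_pow])
    have hv := vv_iso (k := k) hF hb
    have hut : orderOf (tau hF (vv k b)) = r := orderOf_tau hF hn hr hv vv_ne
    have hrG : r ∣ Nat.card (PSU (k + 3) F q) := by
      rw [← hut]; exact orderOf_dvd_natCard _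
    have htq : ¬ t ∣ q := by
      intro h
      rw [hf] at h
      have h1 := (Nat.prime_dvd_prime_iff_eq ht hr).1 (ht.dvd_of_dvd_pow h)
      rw [h1] at htG
      exact htG hrG
    have ht2 : t ≠ 2 := by
      rintro rfl
      rcases hr.eq_two_or_odd' with h | h
      · rw [h] at hrG; exact htG hrG
      · apply htG
        apply H254.PSUn.dvd_card hF hn
        have : Odd q := by rw [hf]; exact h.pow
        exact even_iff_two_dvd.1 this.add_one
    obtain ⟨m', hm', hfx⟩ := exists_card_fixed ht hτ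
    obtain ⟨q0, hq0, hqq, hmq⟩ := exists_root ht ht2 hr hf hf1 (by rw [hm', hF])
    have hk4 := le_of_not_dvd hF ht ht2 htq htG
    -- the scalar
    have h1 : pr (k + 3) F q (hE F q k (u ^ (m - 1))) = pr (k + 3) F q 1 := by
      rw [map_zpow, map_zpow, map_one, zpow_sub_one, hfix, mul_inv_cancel]
    obtain ⟨c, -, hc⟩ := exists_scalar_of_pr_eq hF hn h1
    have hc' : ∀ i : Fin (k + 3), 1 = c * ((((u : Fˣ) ^ (m - 1)) ^ ex k i : Fˣ) : F) := by
      intro i
      have h2 := congrFun (hc (fun _ => 1)) i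
      rw [act_one, act_hE, Pi.smul_apply, smul_eq_mul, mul_one] at h2
      exact h2
    have h2 : ((u : Fˣ) ^ (m - 1)) ^ ex k 0 = ((u : Fˣ) ^ (m - 1)) ^ ex k (Fin.last (k + 2)) := by
      have h3 := (hc' 0).symm.trans (hc' (Fin.last (k + 2)))
      have hc0 : c ≠ 0 := by
        rintro rfl
        have := hc' 0
        rw [zero_mul] at this
        exact one_ne_zero this
      exact Units.ext (mul_left_cancel₀ hc0 h3)
    rw [ex_zero, ex_last] at h2
    -- `τ` fixes `u ^ (EE + 1)`
    have h3 : ((u : Fˣ) ^ (m - 1)) ^ (EE k + 1) = 1 := by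
      rw [zpow_one, zpow_neg, zpow_natCast, eq_inv_iff_mul_eq_one] at h2
      rw [pow_succ', h2]
    have h4 : Units.map (τ : F →* F) ((u : Fˣ) ^ (EE k + 1)) = (u : Fˣ) ^ (EE k + 1) := by
      rw [map_pow, hm]
      have : (u : Fˣ) ^ m = (u : Fˣ) ^ (m - 1) * (u : Fˣ) := by rw [zpow_sub_one, inv_mul_cancel_right]
      rw [this, mul_pow, h3, one_mul]
    have h5 : ((u : Fˣ) ^ (EE k + 1)) ^ m' = (u : Fˣ) ^ (EE k + 1) := by
      apply Units.ext
      rw [Units.val_pow_eq_pow_val]
      exact hfx _ (congrArg Units.val h4)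
    have hm1 : 1 ≤ m' := by rw [hmq]; exact Nat.one_le_pow _ _ (by omega)
    have h6 : (u : Fˣ) ^ ((EE k + 1) * (m' - 1)) = 1 := by
      have h7 : (u : Fˣ) ^ ((EE k + 1) * (m' - 1)) * (u : Fˣ) ^ (EE k + 1) = 1 * (u : Fˣ) ^ (EE k + 1) := by
        rw [one_mul, ← pow_add]
        have : (EE k + 1) * (m' - 1) + (EE k + 1) = (EE k + 1) * m' := by
          obtain ⟨z, hz⟩ := Nat.exists_eq_add_of_le hm1
          rw [hz, Nat.add_sub_cancel_left]
          ring
        rw [this, pow_mul, h5]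
      exact mul_right_cancel h7
    have h7 : q + 1 ∣ (EE k + 1) * (m' - 1) := by
      rw [← hu]
      exact orderOf_dvd_of_pow_eq_one h6
    have h8 : 0 < m' - 1 := by
      rw [hmq]
      have : 2 ^ 2 ≤ q0 ^ 2 := Nat.pow_le_pow_left hq0 2
      omega
    have h9 := Nat.le_of_dvd (Nat.mul_pos (by omega) h8) h7
    -- the bound
    have h10 : EE k + 1 < q0 ^ (t - 2) := by
      calc EE k + 1 < 2 ^ (k + 2) := EE_lt k
        _ ≤ 2 ^ (t - 2) := Nat.pow_le_pow_right (by norm_num) (by omega)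
        _ ≤ q0 ^ (t - 2) := Nat.pow_le_pow_left hq0 _
    have h11 : q0 ^ t = q0 ^ (t - 2) * q0 ^ 2 := by
      rw [← pow_add]
      congr 1
      omega
    have h12 : (EE k + 1) * (m' - 1) ≤ q0 ^ (t - 2) * q0 ^ 2 :=
      Nat.mul_le_mul h10.le (by rw [hmq]; omega)
    rw [← h11, ← hqq] at h12
    omega

/-- **The row.** -/
theorem xRow_psu {r : ℕ} [Fact r.Prime] {F : Type*} [Field F] [Fintype F] [CharP F r] {q n : ℕ}
    (hF : Fintype.card F = q ^ 2) (hn : 3 ≤ n) [IsSimpleGroup (Cfsg.PSU n F q)] :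
    Cfsg.Agent.H730.Pair.XRow r (Cfsg.PSU n F q) := by
  obtain ⟨k, rfl⟩ : ∃ k, n = k + 3 := ⟨n - 3, by omega⟩
  have hr : r.Prime := Fact.out
  have hfin : Finite (PSU (k + 3) F q) := inferInstance
  have hfinS : Finite (SU (k + 3) F q) := inferInstance
  have h32 : ¬ (k + 3 = 3 ∧ q = 2) := by
    rintro ⟨h1, h2⟩
    obtain rfl : k = 0 := by omega
    subst h2
    obtain ⟨h3, h4⟩ := S0282.result (F := F) (by rw [hF]; rfl)
    have h5 : IsMulCommutative (PSU (0 + 3) F 2) := by
      have h6 : IsSimpleGroup (PSU 3 F 2) := ‹IsSimpleGroup (PSU (0 + 3) F 2)›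
      have h7 : Group.IsSolvable (PSU (0 + 3) F 2) := h4
      exact ⟨⟨(IsSimpleGroup.comm_iff_isSolvable).2 h7⟩⟩
    exact H471.TRowPSU.not_comm hF h5
  have hna := H471.TRowPSU.not_comm (k := k) hF
  rintro ⟨t, ht, htG, α, hα⟩
  -- `q` is large
  have hqbig : 2 ^ (k + 3) ≤ q := by
    obtain ⟨ρ, hρ, hgen⟩ := H254.exists_ringAut F
    have hcop := H254.PSUn.copIn hF hn h32 hna ρ hρ
    obtain ⟨g, hg⟩ := hcop (zpowers α) (by
      rw [Nat.card_zpowers, hα]
      exact (Nat.Prime.coprime_iff_not_dvd ht).2 htG)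
    have h1 : MulAut.conj g α ∈ zpowers (H254.PSUn.fld (F := F) (k + 3) q ρ) := hg ⟨α, mem_zpowers α, rfl⟩
    obtain ⟨j, hj⟩ := h1
    have hj' : H254.PSUn.fld (F := F) (k + 3) q (ρ ^ j) = g * α * g⁻¹ := by
      rw [map_zpow]
      exact hj
    have h2 : orderOf (ρ ^ j) = t := by
      rw [← H254.PSUn.orderOf_eq (q := q) (n := k + 3) hF hn, hj', ← MulAut.conj_apply, MulEquiv.orderOf_eq, hα]
    obtain ⟨d, -, hd⟩ := FiniteField.card F r
    obtain ⟨f, -, hf⟩ := (Nat.dvd_prime_pow hr).1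
      (show q ∣ r ^ (d : ℕ) by rw [← hd, hF]; exact dvd_pow_self q two_ne_zero)
    have hq2 := two_le hF
    have hf1 : 1 ≤ f := by
      rcases Nat.eq_zero_or_pos f with h | h
      · rw [h, pow_zero] at hf; omega
      · exact h
    obtain ⟨b, hb⟩ := exists_norm_eq hF (c := (-1 : F)) (by rw [neg_pow_q hF, one_pow])
    have hut : orderOf (tau hF (vv k b)) = r := orderOf_tau hF hn hr (vv_iso (k := k) hF hb) vv_ne
    have hrG : r ∣ Nat.card (PSU (k + 3) F q) := by
      rw [← hut]; exact orderOf_dvd_natCard _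
    have htq : ¬ t ∣ q := by
      intro h
      rw [hf] at h
      have h1 := (Nat.prime_dvd_prime_iff_eq ht hr).1 (ht.dvd_of_dvd_pow h)
      rw [h1] at htG
      exact htG hrG
    have ht2 : t ≠ 2 := by
      rintro rfl
      rcases hr.eq_two_or_odd' with h | h
      · rw [h] at hrG; exact htG hrG
      · apply htG
        apply H254.PSUn.dvd_card hF hn
        have : Odd q := by rw [hf]; exact h.pow
        exact even_iff_two_dvd.1 this.add_one
    obtain ⟨m', hm', -⟩ := exists_card_fixed ht h2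
    obtain ⟨q0, hq0, hqq, -⟩ := exists_root ht ht2 hr hf hf1 (by rw [hm', hF])
    have hk4 := le_of_not_dvd hF ht ht2 htq htG
    calc 2 ^ (k + 3) ≤ 2 ^ t := Nat.pow_le_pow_right (by norm_num) (by omega)
      _ ≤ q0 ^ t := Nat.pow_le_pow_left hq0 _
      _ = q := hqq.symm
  -- the elements
  obtain ⟨au, hau⟩ := exists_norm_gen hF
  have hau1 : au ^ (q + 1) = 1 := by rw [← hau, pow_orderOf_eq_one]
  let u : rootsOfUnity (q + 1) F := ⟨au, (mem_rootsOfUnity _ _).2 hau1⟩
  have hu : orderOf (u : Fˣ) = q + 1 := hau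
  obtain ⟨b, hb⟩ := exists_norm_eq hF (c := (-1 : F)) (by rw [neg_pow_q hF, one_pow])
  have hv := vv_iso (k := k) hF hb
  have hut : orderOf (tau hF (vv k b)) = r := orderOf_tau hF hn hr hv vv_ne
  have hdist : ∀ i j : Fin (k + 3), i ≠ j → ¬ (i.val ≤ 1 ∧ j.val ≤ 1) → (u : Fˣ) ^ ex k i ≠ (u : Fˣ) ^ ex k j := by
    intro i j hij h1 h2
    have h3 := zpow_eq_zpow_iff_modEq.1 h2
    rw [hu] at h3
    have h4 := Int.ModEq.dvd h3
    have h5 : ex k j - ex k i ≠ 0 := sub_ne_zero.2 (ex_ne hij h1).symm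
    have h6 := Int.le_of_dvd (abs_pos.2 h5) ((dvd_abs _ _).2 h4)
    have h7 := ex_abs (k := k) j i
    have h8 : ((2 ^ (k + 3) : ℕ) : ℤ) ≤ (q : ℤ) := by exact_mod_cast hqbig
    push_cast at h6 h8
    omega
  have hcomm : Commute (pr (k + 3) F q (hE F q k u)) (tau hF (vv k b)) := by
    have h1 := conj_tau hF (hE F q k u) hv
    rw [act_hE_vv] at h1
    have h2 : tau hF (((u : Fˣ) : F) • vv k b) = tau hF ((1 : F) • vv k b) :=
      tau_smul_congr hF hv (by
        rw [← pow_succ', one_pow, one_mul, ← Units.val_pow_eq_pow_val]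
        have : (u : Fˣ) ^ (q + 1) = 1 := hau1
        rw [this, Units.val_one])
    rw [h2, one_smul] at h1
    exact mul_inv_eq_iff_eq_mul.1 h1
  have hoe : orderOf (pr (k + 3) F q (hE F q k u)) ∣ q + 1 := by
    apply orderOf_dvd_of_pow_eq_one
    rw [← map_pow, ← map_pow]
    have : u ^ (q + 1) = 1 := Subtype.ext hau1
    rw [this, map_one, map_one]
  obtain ⟨d, -, hd⟩ := FiniteField.card F r
  obtain ⟨f, -, hf⟩ := (Nat.dvd_prime_pow hr).1
    (show q ∣ r ^ (d : ℕ) by rw [← hd, hF]; exact dvd_pow_self q two_ne_zero)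
  have hq2 := two_le hF
  have hrq : r ∣ q := by
    rcases Nat.eq_zero_or_pos f with h | h
    · rw [h, pow_zero] at hf; omega
    · rw [hf]; exact dvd_pow_self r (by omega)
  have hcp : (orderOf (pr (k + 3) F q (hE F q k u))).Coprime (orderOf (tau hF (vv k b))) := by
    rw [hut]
    refine Nat.Coprime.coprime_dvd_left hoe ?_
    refine Nat.Coprime.coprime_dvd_right hrq ?_
    simp
  have hm1 := H730.Pair.mem_zpowers_mul hcomm hcp
  have hm2 : tau hF (vv k b) ∈ zpowers (pr (k + 3) F q (hE F q k u) * tau hF (vv k b)) := by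
    rw [hcomm.eq]
    exact H730.Pair.mem_zpowers_mul hcomm.symm hcp.symm
  refine ⟨pr (k + 3) F q (hE F q k u) * tau hF (vv k b), ?_, (gen_e hF hr hna h32 hu).mul hcomm hcp, ?_⟩
  · have h1 := orderOf_dvd_of_mem_zpowers hm2
    rwa [hut] at h1
  · intro p hp hpG
    set x := pr (k + 3) F q (hE F q k u) * tau hF (vv k b) with hx
    rw [← Subgroup.index_comap_of_surjective (centralizer ({x} : Set (PSU (k + 3) F q))) pr_surjective]
    have hcent : ∀ g ∈ (centralizer ({x} : Set (PSU (k + 3) F q))).comap (pr (k + 3) F q), ∀ y ∈ zpowers x,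
        pr (k + 3) F q g * y = y * pr (k + 3) F q g := by
      intro g hg y hy
      have h1 : x * pr (k + 3) F q g = pr (k + 3) F q g * x :=
        (Subgroup.mem_centralizer_iff.1 (Subgroup.mem_comap.1 hg)) x rfl
      obtain ⟨j, rfl⟩ := hy
      exact ((show Commute x (pr (k + 3) F q g) from h1).zpow_left j).symm
    refine dvd_index hF (card_dvd hF hb _ ?_ ?_) hp hpG
    · intro g hg
      exact (cent_act hF hb u (hcent g hg _ hm1) (hcent g hg _ hm2)).1
    · intro g hg i j hij h1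
      exact mat_eq_zero (cent_act hF hb u (hcent g hg _ hm1) (hcent g hg _ hm2)).2 (hdist i j hij h1)

end Cfsg.Agent.H519.XPsu
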